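import Cfsg.Agent.H382.RIM.Tool
import Cfsg.Agent.H849.RIM.CentCount

/-!
# S4816: forms on columns over a central character (helper795; statements by helper759)

`N ≤ Z(G)`, `c` a faithful linear character of `N`, all irreducible characters over `c` of degree prime to `p`, `x` a
`p`-element, `|C_G(x)| ≤ |N| A`, `k` the number of irreducible characters over `c`:

* `F1` : `y` an involution (or 1) commuting with `x`, `|C_G(xy)| ≤ |N| B` : `4 k ≤ A + 3 B`;
* `F2` : `i, j` commute with `x` and anticommute over `c` : `4 k ≤ A`;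
* `F3` : a four-group commuting with `x`, permuted by `t` commuting with `x` : `8 k ≤ A + 5 B`;
* `F4` : `F2` and an inverted element of order 3 : `36 k ≤ A + 28 B`;
* `F5` : `p = 5`, `x` commutes with an `A₄` and an involution inverting its element of order 3 :
  `48 k ≤ A + 21 B₂ + 16 B₃`.
-/

set_option autoImplicit false
set_option linter.unusedSectionVars false

namespace Cfsg.Agent.H795.RIM.Form

open Cfsg Subgroup Finset
open Cfsg.Agent.Characters.Core
open Cfsg.Agent.OddOrderCharacters.VChar Cfsg.Agent.OddOrderCharacters.PF13.SumBound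
open Cfsg.Agent.H622.Over Cfsg.Agent.H382.RIM
open scoped ComplexConjugate

universe u

variable {G : Type u} [Group G] [Finite G]

/-! ### Functions on commutative subgroups -/

/-- `f` agrees on `H` with a character of `H` -/
def ChOn (H : Subgroup G) (f : G → ℂ) : Prop := IsCharacter H (fun h : H => f h)

/-- `f` agrees on `⟨x⟩` with a generalized character -/
def GcOn (x : G) (f : G → ℂ) : Prop := IsGeneralizedCharacter (zpowers x) (fun z : zpowers x => f z)

theorem chOn_irr (H : Subgroup G) (χ : IrrCharacter G) : ChOn H (χ : G → ℂ) :=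
  Characters.Clifford.isCharacter_restrict H (isIrr_isCharacter χ.2)

theorem sum_root {r : ℂ} {n : ℕ} (hn : n ≠ 0) (hr : r ^ n = 1) :
    (n : ℂ)⁻¹ * ∑ j ∈ range n, r ^ j = if r = 1 then 1 else 0 := by
  split_ifs with h
  · subst h
    have hn' : (n : ℂ) ≠ 0 := by exact_mod_cast hn
    simp [hn']
  · have h1 : (∑ j ∈ range n, r ^ j) * (r - 1) = r ^ n - 1 := geom_sum_mul r n
    rw [hr, sub_self] at h1
    rcases mul_eq_zero.1 h1 with h2 | h2
    · rw [h2, mul_zero]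
    · exact absurd (sub_eq_zero.1 h2) h

/-- **Projection to an eigenspace.** -/
theorem ChOn.proj {H : Subgroup G} (hH : ∀ a ∈ H, ∀ b ∈ H, a * b = b * a) {f : G → ℂ} (hf : ChOn H f)
    {y : G} (hy : y ∈ H) {n : ℕ} (hn : n ≠ 0) (hyn : y ^ n = 1) {ζ : ℂ} (hζ : ζ ^ n = 1) :
    ChOn H (fun g => (n : ℂ)⁻¹ * ∑ j ∈ range n, ζ⁻¹ ^ j * f (g * y ^ j)) := by
  classical
  have := finite_irr (G := H)
  have := Fintype.ofFinite (IrrCharacter H)
  obtain ⟨m, hm⟩ := exists_nat_comb hf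
  have hlin : ∀ η : IrrCharacter H, ∃ l : H →* ℂˣ, (η : H → ℂ) = fun g => (l g : ℂ) := fun η =>
    Characters.Linear.exists_hom_of_isIrrCharacter η.2
      (Characters.CCBasic.irr_apply_one_of_comm (fun a b => Subtype.ext (hH a a.2 b b.2)) η.2)
  choose l hl using hlin
  have hζ0 : ζ ≠ 0 := by
    rintro rfl
    rw [zero_pow hn] at hζ
    exact zero_ne_one hζ
  have key : (fun h : H => (n : ℂ)⁻¹ * ∑ j ∈ range n, ζ⁻¹ ^ j * f ((h : G) * y ^ j)) =
      ∑ η : IrrCharacter H, (if (l η ⟨y, hy⟩ : ℂ) = ζ then m η else 0) • (η : H → ℂ) := by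
    funext h
    have h1 : ∀ j : ℕ, f ((h : G) * y ^ j) = ∑ η : IrrCharacter H, (m η : ℂ) * ((l η h : ℂ) * (l η ⟨y, hy⟩ : ℂ) ^ j) := by
      intro j
      have h2 := congrFun hm (h * (⟨y, hy⟩ : H) ^ j)
      rw [Finset.sum_apply] at h2
      refine h2.trans (Finset.sum_congr rfl fun η _ => ?_)
      rw [Pi.smul_apply, hl η, nsmul_eq_mul]
      simp only [map_mul, map_pow, Units.val_mul, Units.val_pow_eq_pow_val]
    simp only [h1]
    rw [Finset.sum_apply]
    simp only [Finset.mul_sum]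
    rw [Finset.sum_comm]
    refine Finset.sum_congr rfl fun η _ => ?_
    rw [Pi.smul_apply]
    have h3 : (ζ⁻¹ * (l η ⟨y, hy⟩ : ℂ)) ^ n = 1 := by
      rw [mul_pow, inv_pow, hζ, inv_one, one_mul, ← Units.val_pow_eq_pow_val, ← map_pow]
      have h4 : (⟨y, hy⟩ : H) ^ n = 1 := Subtype.ext hyn
      rw [h4, map_one, Units.val_one]
    have h4 := sum_root hn h3
    calc ∑ j ∈ range n, (n : ℂ)⁻¹ * (ζ⁻¹ ^ j * ((m η : ℂ) * ((l η h : ℂ) * (l η ⟨y, hy⟩ : ℂ) ^ j)))
        = ((m η : ℂ) * (l η h : ℂ)) * ((n : ℂ)⁻¹ * ∑ j ∈ range n, (ζ⁻¹ * (l η ⟨y, hy⟩ : ℂ)) ^ j) := by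
          rw [Finset.mul_sum, Finset.mul_sum]
          refine Finset.sum_congr rfl fun j _ => ?_
          rw [mul_pow]
          ring
      _ = _ := by
          rw [h4, hl η]
          by_cases h5 : (l η ⟨y, hy⟩ : ℂ) = ζ
          · rw [if_pos h5, if_pos (by rw [h5, inv_mul_cancel₀ hζ0]), mul_one, nsmul_eq_mul]
          · rw [if_neg h5, if_neg, mul_zero, zero_smul]
            intro h6
            rw [inv_mul_eq_one₀ hζ0] at h6
            exact h5 h6.symm
  unfold ChOn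
  rw [key]
  exact isCharacter_sum _ fun η _ => isCharacter_nsmul _ (isIrr_isCharacter η.2)

theorem ChOn.gc {H : Subgroup G} {f : G → ℂ} (hf : ChOn H f) {x : G} (hx : x ∈ H) : GcOn x f := by
  have hle : zpowers x ≤ H := (zpowers_le).2 hx
  have h1 := isCharacter_comp (inclusion hle) hf
  exact gen_of_char h1

theorem GcOn.sub {x : G} {f g : G → ℂ} (hf : GcOn x f) (hg : GcOn x g) : GcOn x (fun z => f z - g z) := gen_sub hf hg

theorem GcOn.add {x : G} {f g : G → ℂ} (hf : GcOn x f) (hg : GcOn x g) : GcOn x (fun z => f z + g z) := gen_add hf hg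

theorem GcOn.smul {x : G} {f : G → ℂ} (n : ℤ) (hf : GcOn x f) : GcOn x (fun z => (n : ℂ) * f z) :=
  gen_intCast_smul n hf

theorem GcOn.congr {x : G} {f g : G → ℂ} (hf : GcOn x f) (h : ∀ z ∈ zpowers x, f z = g z) : GcOn x g := by
  have h1 : (fun z : zpowers x => g z) = fun z : zpowers x => f z := by
    funext z
    exact (h z z.2).symm
  unfold GcOn
  rw [h1]
  exact hf

/-! ### The generators of `⟨x⟩` -/

/-- the generators of `⟨x⟩` -/
noncomputable def gens (x : G) : Finset (zpowers x) := by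
  classical
  exact (Set.toFinite (Set.univ : Set (zpowers x))).toFinset.filter fun z => orderOf z = orderOf x

theorem mem_gens {x : G} {z : zpowers x} : z ∈ gens x ↔ orderOf z = orderOf x := by
  classical
  simp [gens]

theorem self_mem_gens (x : G) : (⟨x, mem_zpowers x⟩ : zpowers x) ∈ gens x := by
  rw [mem_gens]
  exact orderOf_mk x _

theorem card_gens_pos (x : G) : (0 : ℝ) < (gens x).card := by
  exact_mod_cast Finset.card_pos.2 ⟨_, self_mem_gens x⟩

theorem gens_pow {x : G} {z : zpowers x} (hz : z ∈ gens x) {m : ℕ} (hm : m.Coprime (Nat.card (zpowers x))) :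
    z ^ m ∈ gens x := by
  rw [mem_gens] at hz ⊢
  rw [← hz]
  apply Nat.Coprime.orderOf_pow
  rw [hz, ← Nat.card_zpowers]
  exact hm.symm

theorem exists_pow_of_gens {x : G} {z : zpowers x} (hz : z ∈ gens x) :
    ∃ m : ℕ, m.Coprime (Nat.card (zpowers x)) ∧ z = (⟨x, mem_zpowers x⟩ : zpowers x) ^ m := by
  rw [mem_gens] at hz
  obtain ⟨k, hk⟩ := mem_powers_iff_mem_zpowers.2 z.2
  have hk' : x ^ k = (z : G) := hk
  refine ⟨k, ?_, Subtype.ext hk'.symm⟩
  rw [Nat.card_zpowers]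
  have h1 : orderOf (x ^ k) = orderOf x := by rw [hk', Subgroup.orderOf_coe, hz]
  rw [orderOf_pow] at h1
  have h0 : 0 < orderOf x := orderOf_pos x
  rw [Nat.coprime_comm, Nat.Coprime]
  by_contra h2
  have h3 : 0 < (orderOf x).gcd k := Nat.gcd_pos_of_pos_left k h0
  have h4 := Nat.div_lt_self h0 (show 1 < (orderOf x).gcd k by omega)
  omega

/-- **The bound for one function.** -/
theorem card_le_of_ne {x : G} {f : G → ℂ} (hf : GcOn x f) (h0 : f x ≠ 0) :
    ((gens x).card : ℝ) ≤ ∑ z ∈ gens x, ‖f z‖ ^ 2 := by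
  have h1 := card_le_sum_sq (G := zpowers x) ({()} : Finset Unit) (fun _ z => f z) (fun _ _ => hf) (gens x)
    (fun z hz m hm => gens_pow hz hm) (fun z hz => by
      refine ⟨(), mem_singleton_self _, ?_⟩
      obtain ⟨m, hm, rfl⟩ := exists_pow_of_gens hz
      obtain ⟨σ, hσ⟩ := gen_exists_ringEquiv (G := zpowers x) hm
      have h2 := hσ _ hf ⟨x, mem_zpowers x⟩
      intro h3
      rw [h3] at h2
      exact h0 ((map_eq_zero σ).1 h2))
  simpa using h1

theorem one_of_two {x : G} {u v : G → ℂ} (hu : GcOn x u) (hv : GcOn x v) (h0 : ¬ (u x = 0 ∧ v x = 0)) :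
    ((gens x).card : ℝ) ≤ ∑ z ∈ gens x, (‖u z‖ ^ 2 + ‖v z‖ ^ 2) := by
  rw [Finset.sum_add_distrib]
  have h1 : 0 ≤ ∑ z ∈ gens x, ‖u z‖ ^ 2 := Finset.sum_nonneg fun _ _ => by positivity
  have h2 : 0 ≤ ∑ z ∈ gens x, ‖v z‖ ^ 2 := Finset.sum_nonneg fun _ _ => by positivity
  by_cases h : u x = 0
  · have h3 := card_le_of_ne hv fun h4 => h0 ⟨h, h4⟩
    linarith
  · have h3 := card_le_of_ne hu h
    linarith

theorem two_of_three {x : G} {u v : G → ℂ} (hu : GcOn x u) (hv : GcOn x v) (h0 : ¬ (u x = 0 ∧ v x = 0)) :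
    2 * ((gens x).card : ℝ) ≤ ∑ z ∈ gens x, (‖u z‖ ^ 2 + ‖v z‖ ^ 2 + ‖u z - v z‖ ^ 2) := by
  rw [Finset.sum_add_distrib, Finset.sum_add_distrib]
  have h1 : 0 ≤ ∑ z ∈ gens x, ‖u z‖ ^ 2 := Finset.sum_nonneg fun _ _ => by positivity
  have h2 : 0 ≤ ∑ z ∈ gens x, ‖v z‖ ^ 2 := Finset.sum_nonneg fun _ _ => by positivity
  have h3 : 0 ≤ ∑ z ∈ gens x, ‖u z - v z‖ ^ 2 := Finset.sum_nonneg fun _ _ => by positivity
  have huv := hu.sub hv
  by_cases hu0 : u x = 0
  · have hv0 : v x ≠ 0 := fun h4 => h0 ⟨hu0, h4⟩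
    have h4 := card_le_of_ne hv hv0
    have h5 := card_le_of_ne huv (by rw [hu0, zero_sub]; exact neg_ne_zero.2 hv0)
    linarith
  · have h4 := card_le_of_ne hu hu0
    by_cases hv0 : v x = 0
    · have h5 := card_le_of_ne huv (by rw [hv0, sub_zero]; exact hu0)
      linarith
    · have h5 := card_le_of_ne hv hv0
      linarith

/-! ### Columns -/

/-- The column of `g`. -/
theorem col_le [Fintype (IrrCharacter G)] {N : Subgroup G} (hN : N ≤ center G) {c : N →* ℂˣ}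
    (hc : Function.Injective c) (g : G) :
    (Nat.card N : ℝ) * ∑ χ ∈ ov N c, ‖(χ : G → ℂ) g‖ ^ 2 ≤ (Nat.card (centralizer ({g} : Set G)) : ℝ) := by
  by_cases h : ∀ n : N, IsConj (g * n) g → n = 1
  · exact (sum_normSq_over hN c g h).le
  · push Not at h
    obtain ⟨n, hn, hn1⟩ := h
    have h1 : ∀ χ ∈ ov N c, ‖(χ : G → ℂ) g‖ ^ 2 = 0 := by
      intro χ hχ
      have h2 := (mem_ov.1 hχ) g n
      have h3 : (χ : G → ℂ) (g * n) = (χ : G → ℂ) g := by
        obtain ⟨y, hy⟩ := isConj_iff.1 hn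
        have h6 := (isCharacter_isClassFunction (isIrr_isCharacter χ.2)) (g * n) y
        rw [hy] at h6
        exact h6.symm
      rw [h3] at h2
      have h4 : (c n : ℂ) ≠ 1 := fun h5 => hn1 (hc (by rw [map_one]; exact Units.ext h5))
      have h5 : (χ : G → ℂ) g * ((c n : ℂ) - 1) = 0 := by rw [mul_sub, ← h2, mul_one, sub_self]
      rcases mul_eq_zero.1 h5 with h6 | h6
      · rw [h6, norm_zero]; norm_num
      · exact absurd (sub_eq_zero.1 h6) h4
    rw [Finset.sum_eq_zero h1, mul_zero]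
    positivity

/-- Orthogonal columns. -/
theorem col_zero [Fintype (IrrCharacter G)] {N : Subgroup G} (hN : N ≤ center G) (c : N →* ℂˣ) {g h : G}
    (hgh : ∀ n : N, ¬ IsConj (g * n) h) : ∑ χ ∈ ov N c, (χ : G → ℂ) g * conj ((χ : G → ℂ) h) = 0 := by
  classical
  have := Fintype.ofFinite N
  rw [sum_over hN c g h, Finset.sum_eq_zero, mul_zero]
  intro n _
  rw [if_neg (hgh n), mul_zero]

theorem exists_exp {m n : ℕ} (h : m.Coprime n) :
    ∃ e : ℕ, (∀ {H : Type u} [Group H] (a : H), a ^ m = 1 → a ^ e = a) ∧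
      ∀ {H : Type u} [Group H] (a : H), a ^ n = 1 → a ^ e = 1 := by
  obtain ⟨e, he⟩ := Nat.chineseRemainder h 1 0
  refine ⟨e, ?_, ?_⟩
  · intro H _ a ha
    have h1 : orderOf a ∣ m := orderOf_dvd_of_pow_eq_one ha
    have h2 : a ^ e = a ^ 1 := pow_eq_pow_iff_modEq.2 (he.1.of_dvd h1)
    rw [h2, pow_one]
  · intro H _ a ha
    have h1 : orderOf a ∣ n := orderOf_dvd_of_pow_eq_one ha
    have h2 : a ^ e = a ^ 0 := pow_eq_pow_iff_modEq.2 (he.2.of_dvd h1)
    rw [h2, pow_zero]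

theorem centralizer_mul {m n : ℕ} (h : m.Coprime n) {a b : G} (hab : Commute a b) (ha : a ^ m = 1) (hb : b ^ n = 1) :
    centralizer ({a * b} : Set G) = centralizer {a} ⊓ centralizer {b} := by
  ext t
  rw [Subgroup.mem_inf, mem_centralizer_singleton_iff, mem_centralizer_singleton_iff, mem_centralizer_singleton_iff]
  constructor
  · intro ht
    obtain ⟨e, h1, h2⟩ := exists_exp.{u} h
    obtain ⟨f, h3, h4⟩ := exists_exp.{u} h.symm
    have ht' : Commute t (a * b) := ht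
    have h5 : (a * b) ^ e = a := by rw [hab.mul_pow, h1 a ha, h2 b hb, mul_one]
    have h6 : (a * b) ^ f = b := by rw [hab.mul_pow, h4 a ha, h3 b hb, one_mul]
    have h7 := ht'.pow_right e
    have h8 := ht'.pow_right f
    rw [h5] at h7
    rw [h6] at h8
    exact ⟨h7, h8⟩
  · rintro ⟨h1, h2⟩
    have h3 : Commute t a := h1
    have h4 : Commute t b := h2
    exact h3.mul_right h4

theorem centralizer_gens {x : G} {z : zpowers x} (hz : z ∈ gens x) :
    centralizer ({(z : G)} : Set G) = centralizer {x} := by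
  rw [mem_gens] at hz
  have h1 : zpowers (z : G) = zpowers x := by
    refine eq_of_le_of_card_ge (zpowers_le.2 z.2) ?_
    rw [Nat.card_zpowers, Nat.card_zpowers, Subgroup.orderOf_coe, hz]
  have h2 : centralizer (zpowers (z : G) : Set G) = centralizer (zpowers x : Set G) := by rw [h1]
  have h3 : ∀ t : G, centralizer (zpowers t : Set G) = centralizer {t} := fun t => by
    rw [zpowers_eq_closure, centralizer_closure]
  rwa [h3, h3] at h2

section data

variable {p : ℕ} {x : G} {a : ℕ}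

theorem pow_gens (hx : x ^ p ^ a = 1) {z : zpowers x} (hz : z ∈ gens x) : (z : G) ^ p ^ a = 1 := by
  rw [mem_gens] at hz
  rw [← orderOf_dvd_iff_pow_eq_one, Subgroup.orderOf_coe, hz]
  exact orderOf_dvd_of_pow_eq_one hx

theorem commute_gens {y : G} (hxy : Commute x y) (z : zpowers x) : Commute (z : G) y := by
  obtain ⟨k, hk⟩ := mem_zpowers_iff.1 z.2
  rw [← hk]
  exact hxy.zpow_left k

theorem centralizer_gens_mul (hx : x ^ p ^ a = 1) {y : G} (hxy : Commute x y) {n : ℕ} (hy : y ^ n = 1)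
    (hpn : n.Coprime p) {z : zpowers x} (hz : z ∈ gens x) :
    centralizer ({(z : G) * y} : Set G) = centralizer {x * y} := by
  have hco : (p ^ a).Coprime n := Nat.Coprime.pow_left a hpn.symm
  rw [centralizer_mul hco (commute_gens hxy z) (pow_gens hx hz) hy, centralizer_mul hco hxy hx hy,
    centralizer_gens hz]

/-- The columns `z * y`. -/
theorem col_gens_le [Fintype (IrrCharacter G)] {N : Subgroup G} (hN : N ≤ center G) {c : N →* ℂˣ}
    (hc : Function.Injective c) (hx : x ^ p ^ a = 1) {y : G} (hxy : Commute x y) {n : ℕ} (hy : y ^ n = 1)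
    (hpn : n.Coprime p) {B : ℕ} (hB : Nat.card (centralizer ({x * y} : Set G)) ≤ Nat.card N * B)
    {z : zpowers x} (hz : z ∈ gens x) : ∑ χ ∈ ov N c, ‖(χ : G → ℂ) (z * y)‖ ^ 2 ≤ B := by
  have h1 := col_le hN hc ((z : G) * y)
  rw [centralizer_gens_mul hx hxy hy hpn hz] at h1
  have h2 : (Nat.card (centralizer ({x * y} : Set G)) : ℝ) ≤ (Nat.card N : ℝ) * B := by exact_mod_cast hB
  have h3 : (0 : ℝ) < Nat.card N := by exact_mod_cast Nat.card_pos
  exact le_of_mul_le_mul_left (h1.trans h2) h3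

/-- The columns `z`. -/
theorem col_gens_le_one [Fintype (IrrCharacter G)] {N : Subgroup G} (hN : N ≤ center G) {c : N →* ℂˣ}
    (hc : Function.Injective c) {B : ℕ} (hB : Nat.card (centralizer ({x} : Set G)) ≤ Nat.card N * B)
    {z : zpowers x} (hz : z ∈ gens x) : ∑ χ ∈ ov N c, ‖(χ : G → ℂ) z‖ ^ 2 ≤ B := by
  have h1 := col_le hN hc (z : G)
  rw [centralizer_gens hz] at h1
  have h2 : (Nat.card (centralizer ({x} : Set G)) : ℝ) ≤ (Nat.card N : ℝ) * B := by exact_mod_cast hB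
  have h3 : (0 : ℝ) < Nat.card N := by exact_mod_cast Nat.card_pos
  exact le_of_mul_le_mul_left (h1.trans h2) h3

/-- The columns `z * y₁`, `z * y₂` are orthogonal if `y₁ N`, `y₂ N` are not conjugate. -/
theorem cross_zero [Fintype (IrrCharacter G)] {N : Subgroup G} (hN : N ≤ center G) (c : N →* ℂˣ)
    (hpN : (Nat.card N).Coprime p) (hx : x ^ p ^ a = 1) {y₁ y₂ : G} (h₁ : Commute x y₁) (h₂ : Commute x y₂) {n : ℕ}
    (hy₁ : y₁ ^ n = 1) (hy₂ : y₂ ^ n = 1) (hpn : n.Coprime p) (hne : ∀ m : N, ¬ IsConj (y₁ * m) y₂)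
    {z : zpowers x} (hz : z ∈ gens x) :
    ∑ χ ∈ ov N c, (χ : G → ℂ) (z * y₁) * conj ((χ : G → ℂ) (z * y₂)) = 0 := by
  refine col_zero hN c fun m hm => hne m ?_
  have hco : (n * Nat.card N).Coprime (p ^ a) := Nat.Coprime.pow_right a (Nat.Coprime.mul_left hpn hpN)
  obtain ⟨e, h1, h2⟩ := exists_exp.{u} hco
  obtain ⟨g, hg⟩ := isConj_iff.1 hm
  have hcm : ∀ t : G, Commute t (m : G) := fun t => (mem_center_iff.1 (hN m.2) t)
  have hz1 := pow_gens hx hz
  have hm1 : (m : G) ^ Nat.card N = 1 := by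
    rw [← Subgroup.coe_pow, pow_card_eq_one', Subgroup.coe_one]
  have e1 : ((z : G) * y₁ * m) ^ e = y₁ * m := by
    rw [(hcm _).mul_pow, (commute_gens h₁ z).mul_pow, h2 _ hz1, one_mul, h1 y₁ (by rw [pow_mul, hy₁, one_pow]),
      h1 (m : G) (by rw [mul_comm, pow_mul, hm1, one_pow])]
  have e2 : ((z : G) * y₂) ^ e = y₂ := by
    rw [(commute_gens h₂ z).mul_pow, h2 _ hz1, one_mul, h1 y₂ (by rw [pow_mul, hy₂, one_pow])]
  refine isConj_iff.2 ⟨g, ?_⟩
  rw [← e1, ← conj_pow, hg, e2]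

theorem cross_zero_one [Fintype (IrrCharacter G)] {N : Subgroup G} (hN : N ≤ center G) (c : N →* ℂˣ)
    (hpN : (Nat.card N).Coprime p) (hx : x ^ p ^ a = 1) {y : G} (hxy : Commute x y) {n : ℕ}
    (hy : y ^ n = 1) (hpn : n.Coprime p) (hyN : y ∉ N) {z : zpowers x} (hz : z ∈ gens x) :
    ∑ χ ∈ ov N c, (χ : G → ℂ) z * conj ((χ : G → ℂ) (z * y)) = 0 := by
  have h1 := cross_zero hN c hpN hx (Commute.one_right x) hxy (one_pow n) hy hpn (fun m hm => by
    rw [one_mul] at hm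
    obtain ⟨g, hg⟩ := isConj_iff.1 hm
    have h2 := mem_center_iff.1 (hN m.2) g
    rw [h2, mul_inv_cancel_right] at hg
    exact hyN (hg ▸ m.2)) hz
  simpa using h1

end data

/-- **The count.** -/
theorem main_bound (x : G) (S : Finset (IrrCharacter G)) (Q : IrrCharacter G → zpowers x → ℝ) {K M : ℝ}
    (h1 : ∀ χ ∈ S, K * (gens x).card ≤ ∑ z ∈ gens x, Q χ z) (h2 : ∀ z ∈ gens x, ∑ χ ∈ S, Q χ z ≤ M) :
    K * S.card ≤ M := by
  have h3 := card_gens_pos x
  have h4 : (S.card : ℝ) * (K * (gens x).card) ≤ (gens x).card * M := by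
    calc (S.card : ℝ) * (K * (gens x).card) = ∑ _χ ∈ S, K * ((gens x).card : ℝ) := by
          rw [Finset.sum_const, nsmul_eq_mul]
      _ ≤ ∑ χ ∈ S, ∑ z ∈ gens x, Q χ z := Finset.sum_le_sum h1
      _ = ∑ z ∈ gens x, ∑ χ ∈ S, Q χ z := Finset.sum_comm
      _ ≤ ∑ _z ∈ gens x, M := Finset.sum_le_sum h2
      _ = (gens x).card * M := by rw [Finset.sum_const, nsmul_eq_mul]
  have h5 : ((gens x).card : ℝ) * (K * S.card) ≤ (gens x).card * M := by
    calc ((gens x).card : ℝ) * (K * S.card) = (S.card : ℝ) * (K * (gens x).card) := by ring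
      _ ≤ _ := h4
  exact le_of_mul_le_mul_left h5 h3

/-! ### Special projections -/

theorem closure_comm {s : Set G} (h : ∀ a ∈ s, ∀ b ∈ s, a * b = b * a) :
    ∀ a ∈ closure s, ∀ b ∈ closure s, a * b = b * a := by
  intro a ha b hb
  have h1 := (Subgroup.isMulCommutative_closure h).is_comm.comm ⟨a, ha⟩ ⟨b, hb⟩
  exact congrArg Subtype.val h1

theorem pair_comm {x y : G} (h : Commute x y) : ∀ a ∈ ({x, y} : Set G), ∀ b ∈ ({x, y} : Set G), a * b = b * a := by
  intro a ha b hb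
  rcases ha with rfl | ha <;> rcases hb with rfl | hb
  · rfl
  · rw [Set.mem_singleton_iff] at hb; subst hb; exact h
  · rw [Set.mem_singleton_iff] at ha; subst ha; exact h.symm
  · rw [Set.mem_singleton_iff] at ha hb; rw [ha, hb]

theorem triple_comm {x y z : G} (h : Commute x y) (h' : Commute x z) (h'' : Commute y z) :
    ∀ a ∈ ({x, y, z} : Set G), ∀ b ∈ ({x, y, z} : Set G), a * b = b * a := by
  intro a ha b hb
  rcases ha with rfl | ha <;> rcases hb with rfl | hb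
  · rfl
  · rcases hb with rfl | hb
    · exact h
    · rw [Set.mem_singleton_iff] at hb; subst hb; exact h'
  · rcases ha with rfl | ha
    · exact h.symm
    · rw [Set.mem_singleton_iff] at ha; subst ha; exact h'.symm
  · exact pair_comm h'' a ha b hb

theorem ChOn.congr {H : Subgroup G} {f g : G → ℂ} (hf : ChOn H f) (h : ∀ z ∈ H, f z = g z) : ChOn H g := by
  have h1 : (fun z : H => g z) = fun z : H => f z := by
    funext z
    exact (h z z.2).symm
  unfold ChOn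
  rw [h1]
  exact hf

theorem ChOn.half {H : Subgroup G} (hH : ∀ a ∈ H, ∀ b ∈ H, a * b = b * a) {f : G → ℂ} (hf : ChOn H f)
    {y : G} (hy : y ∈ H) (hyy : y * y = 1) : ChOn H (fun g => (f g + f (g * y)) / 2) := by
  refine (hf.proj hH hy (n := 2) two_ne_zero (by rw [pow_two, hyy]) (ζ := 1) (one_pow 2)).congr fun z _ => ?_
  rw [Finset.sum_range_succ, Finset.sum_range_one, pow_zero, pow_one, pow_zero, pow_one, mul_one, inv_one, one_mul,
    one_mul]
  push_cast
  ring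

theorem ChOn.half' {H : Subgroup G} (hH : ∀ a ∈ H, ∀ b ∈ H, a * b = b * a) {f : G → ℂ} (hf : ChOn H f)
    {y : G} (hy : y ∈ H) (hyy : y * y = 1) : ChOn H (fun g => (f g - f (g * y)) / 2) := by
  refine (hf.proj hH hy (n := 2) two_ne_zero (by rw [pow_two, hyy]) (ζ := -1) (by norm_num)).congr fun z _ => ?_
  rw [Finset.sum_range_succ, Finset.sum_range_one, pow_zero, pow_one, pow_zero, pow_one, mul_one, one_mul]
  push_cast
  have h1 : (-1 : ℂ)⁻¹ = -1 := by norm_num
  rw [h1]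
  ring

theorem gc_mul {H : Subgroup G} (hH : ∀ a ∈ H, ∀ b ∈ H, a * b = b * a) {f : G → ℂ} (hf : ChOn H f)
    {x y : G} (hx : x ∈ H) (hy : y ∈ H) (hyy : y * y = 1) : GcOn x (fun g => f (g * y)) := by
  refine (((hf.half hH hy hyy).gc hx).sub ((hf.half' hH hy hyy).gc hx)).congr fun z _ => ?_
  ring

/-- An element of order 3 whose inverse gives the same column. -/
theorem gc_third {H : Subgroup G} (hH : ∀ a ∈ H, ∀ b ∈ H, a * b = b * a) {f : G → ℂ} (hf : ChOn H f)
    {x y : G} (hx : x ∈ H) (hy : y ∈ H) (hyy : y ^ 3 = 1) (h2 : ∀ z ∈ zpowers x, f (z * y ^ 2) = f (z * y)) :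
    GcOn x (fun g => (f g - f (g * y)) / 3) := by
  have hr := Complex.isPrimitiveRoot_exp 3 (by norm_num)
  set r := Complex.exp (2 * Real.pi * Complex.I / (3 : ℕ)) with hrdef
  have h3 : r ^ 3 = 1 := hr.pow_eq_one
  have h4 := hr.geom_sum_eq_zero (by norm_num)
  rw [Finset.sum_range_succ, Finset.sum_range_succ, Finset.sum_range_one, pow_zero, pow_one] at h4
  refine ((hf.proj hH hy (n := 3) three_ne_zero hyy (ζ := r⁻¹) (by rw [inv_pow, h3, inv_one])).gc hx).congr
    fun z hz => ?_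
  rw [Finset.sum_range_succ, Finset.sum_range_succ, Finset.sum_range_one, inv_inv, pow_zero, pow_zero, pow_one,
    pow_one, mul_one, one_mul, h2 z hz]
  push_cast
  have h5 : r ^ 2 = -1 - r := by linear_combination h4
  rw [h5]
  ring

/-- An element of order dividing 4 whose odd powers give zero columns. -/
theorem gc_two {H : Subgroup G} (hH : ∀ a ∈ H, ∀ b ∈ H, a * b = b * a) {f : G → ℂ} (hf : ChOn H f)
    {x i : G} (hx : x ∈ H) (hi : i ∈ H) (hi4 : i ^ 4 = 1) {ε : ℂ} (hε : ε ^ 2 = 1)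
    (h1 : ∀ z ∈ zpowers x, f (z * i) = 0) (h2 : ∀ z ∈ zpowers x, f (z * i ^ 2) = ε * f z)
    (h3 : ∀ z ∈ zpowers x, f (z * i ^ 3) = 0) : GcOn x (fun g => f g / 2) := by
  obtain ⟨r, hr⟩ := IsAlgClosed.exists_pow_nat_eq ε (n := 2) two_pos
  have hε0 : ε ≠ 0 := by
    rintro rfl
    norm_num at hε
  refine ((hf.proj hH hi (n := 4) four_ne_zero hi4 (ζ := r) (by
    calc r ^ 4 = (r ^ 2) ^ 2 := by ring
      _ = 1 := by rw [hr, hε])).gc hx).congr fun z hz => ?_
  rw [Finset.sum_range_succ, Finset.sum_range_succ, Finset.sum_range_succ, Finset.sum_range_one, pow_zero, pow_zero,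
    pow_one, pow_one, mul_one, one_mul, h1 z hz, h2 z hz, h3 z hz, inv_pow, hr]
  push_cast
  field_simp
  ring

theorem norm_F1 (P Q : ℂ) : ‖(P + Q) / 2‖ ^ 2 + ‖(P - Q) / 2‖ ^ 2 + ‖(P + Q) / 2 - (P - Q) / 2‖ ^ 2 =
    ‖P‖ ^ 2 / 2 + 3 / 2 * ‖Q‖ ^ 2 := by
  have h1 : (P + Q) / 2 - (P - Q) / 2 = Q := by ring
  rw [h1]
  simp only [← Complex.normSq_eq_norm_sq, Complex.normSq_apply, Complex.add_re, Complex.add_im, Complex.sub_re,
    Complex.sub_im, Complex.div_ofNat_re, Complex.div_ofNat_im]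
  ring

theorem norm_F3 (P Q : ℂ) : 8 * (‖(P + 3 * Q) / 4‖ ^ 2 + ‖(P - Q) / 4‖ ^ 2) =
    ‖P‖ ^ 2 + 5 * ‖Q‖ ^ 2 + 2 * (P * conj Q).re := by
  simp only [← Complex.normSq_eq_norm_sq, Complex.normSq_apply, Complex.add_re, Complex.add_im, Complex.sub_re,
    Complex.sub_im, Complex.div_ofNat_re, Complex.div_ofNat_im, Complex.mul_re, Complex.mul_im, Complex.conj_re,
    Complex.conj_im, Complex.re_ofNat, Complex.im_ofNat]
  ring

theorem norm_F4 (P Q : ℂ) :
    18 * (‖(P - 4 * Q) / 6‖ ^ 2 + ‖(P + 2 * Q) / 6‖ ^ 2 + ‖(P - 4 * Q) / 6 - (P + 2 * Q) / 6‖ ^ 2) =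
    ‖P‖ ^ 2 + 28 * ‖Q‖ ^ 2 - 2 * (P * conj Q).re := by
  simp only [← Complex.normSq_eq_norm_sq, Complex.normSq_apply, Complex.add_re, Complex.add_im, Complex.sub_re,
    Complex.sub_im, Complex.div_ofNat_re, Complex.div_ofNat_im, Complex.mul_re, Complex.mul_im, Complex.conj_re,
    Complex.conj_im, Complex.re_ofNat, Complex.im_ofNat]
  ring

theorem norm_F5 (P Q R : ℂ) :
    24 * (‖(P + 3 * Q + 8 * R) / 12‖ ^ 2 + ‖(P - 3 * Q + 2 * R) / 6‖ ^ 2 +
      ‖(P + 3 * Q + 8 * R) / 12 - (P - 3 * Q + 2 * R) / 6‖ ^ 2) =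
    ‖P‖ ^ 2 + 21 * ‖Q‖ ^ 2 + 16 * ‖R‖ ^ 2 - 6 * (P * conj Q).re + 4 * (P * conj R).re + 12 * (Q * conj R).re := by
  simp only [← Complex.normSq_eq_norm_sq, Complex.normSq_apply, Complex.add_re, Complex.add_im, Complex.sub_re,
    Complex.sub_im, Complex.div_ofNat_re, Complex.div_ofNat_im, Complex.mul_re, Complex.mul_im, Complex.conj_re,
    Complex.conj_im, Complex.re_ofNat, Complex.im_ofNat]
  ring

/-! ### The forms -/

section forms

variable {p : ℕ} [hp : Fact p.Prime] {N : Subgroup G} {c : N →* ℂˣ} {x : G} {a : ℕ}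

theorem ne_zero (hS : ∀ χ : IrrCharacter G, Lies N c (χ : G → ℂ) → ¬ p ∣ charDegree (χ : G → ℂ))
    (hx : x ^ p ^ a = 1) {χ : IrrCharacter G} (hχ : Lies N c (χ : G → ℂ)) : (χ : G → ℂ) x ≠ 0 :=
  H424.CentBound.apply_ne_zero (p := p) (isIrr_isCharacter χ.2) (Blocks.Basic.irr_one_eq_charDegree χ.2)
    (hS χ hχ) (m := a) hx

theorem irr_conj (χ : IrrCharacter G) (g t : G) : (χ : G → ℂ) (t * g * t⁻¹) = (χ : G → ℂ) g :=
  isCharacter_isClassFunction (isIrr_isCharacter χ.2) g t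

/-- Conjugation by an element which commutes with `x`. -/
theorem irr_conj_mul (χ : IrrCharacter G) {x t y y' : G} (hxt : Commute x t) (hty : t * y * t⁻¹ = y') {z : G}
    (hz : z ∈ zpowers x) : (χ : G → ℂ) (z * y') = (χ : G → ℂ) (z * y) := by
  obtain ⟨k, rfl⟩ := mem_zpowers_iff.1 hz
  have h1 : Commute (x ^ k) t := hxt.zpow_left k
  have h2 : x ^ k * (t * y * t⁻¹) = t * (x ^ k * y) * t⁻¹ := by
    calc x ^ k * (t * y * t⁻¹) = (x ^ k * t) * y * t⁻¹ := by group
      _ = t * (x ^ k * y) * t⁻¹ := by rw [h1.eq]; group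
  rw [← hty, h2, irr_conj]

/-- **F1** -/
theorem F1 (hp2 : p ≠ 2) (hN : N ≤ center G) (hc : Function.Injective c)
    (hS : ∀ χ : IrrCharacter G, Lies N c (χ : G → ℂ) → ¬ p ∣ charDegree (χ : G → ℂ))
    (hx : x ^ p ^ a = 1) {y : G} (hxy : Commute x y) (hy : y * y = 1) {A B : ℕ}
    (hA : Nat.card (centralizer ({x} : Set G)) ≤ Nat.card N * A)
    (hB : Nat.card (centralizer ({x * y} : Set G)) ≤ Nat.card N * B) :
    4 * Nat.card {χ : IrrCharacter G // Lies N c (χ : G → ℂ)} ≤ A + 3 * B := by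
  classical
  have := finite_irr (G := G)
  have := Fintype.ofFinite (IrrCharacter G)
  have hH := closure_comm (pair_comm hxy)
  have hxH : x ∈ closure ({x, y} : Set G) := subset_closure (by simp)
  have hyH : y ∈ closure ({x, y} : Set G) := subset_closure (by simp)
  have hu : ∀ χ : IrrCharacter G, GcOn x (fun g => ((χ : G → ℂ) g + (χ : G → ℂ) (g * y)) / 2) := fun χ =>
    ((chOn_irr _ χ).half hH hyH hy).gc hxH
  have hv : ∀ χ : IrrCharacter G, GcOn x (fun g => ((χ : G → ℂ) g - (χ : G → ℂ) (g * y)) / 2) := fun χ =>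
    ((chOn_irr _ χ).half' hH hyH hy).gc hxH
  have hy2 : y ^ 2 = 1 := by rw [pow_two, hy]
  have hco : Nat.Coprime 2 p := (Nat.coprime_primes Nat.prime_two hp.out).2 (Ne.symm hp2)
  have h := main_bound x (ov N c) (fun χ z => ‖((χ : G → ℂ) z + (χ : G → ℂ) (z * y)) / 2‖ ^ 2 +
    ‖((χ : G → ℂ) z - (χ : G → ℂ) (z * y)) / 2‖ ^ 2 +
    ‖((χ : G → ℂ) z + (χ : G → ℂ) (z * y)) / 2 - ((χ : G → ℂ) z - (χ : G → ℂ) (z * y)) / 2‖ ^ 2)
    (K := 2) (M := (A : ℝ) / 2 + 3 / 2 * B) ?_ ?_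
  · rw [card_ov]
    have h1 : (4 * (ov N c).card : ℝ) ≤ A + 3 * B := by linarith
    exact_mod_cast h1
  · intro χ hχ
    have h1 := two_of_three (hu χ) (hv χ) (fun h1 => ne_zero hS hx (mem_ov.1 hχ) (by
      linear_combination h1.1 + h1.2))
    exact h1
  · intro z hz
    rw [Finset.sum_congr rfl fun χ _ => norm_F1 _ _, Finset.sum_add_distrib, ← Finset.sum_div, ← Finset.mul_sum]
    have h1 := col_gens_le_one hN hc hA hz
    have h2 := col_gens_le hN hc hx hxy hy2 hco hB hz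
    linarith

/-- Anticommuting elements over `c`. -/
theorem gc_anti (hc : Function.Injective c) {χ : IrrCharacter G} (hχ : Lies N c (χ : G → ℂ))
    {i j : G} (hxi : Commute x i) (hxj : Commute x j) {w w' : N} (hij : i * j = j * i * w) (hii : i * i = w')
    (hw : (c w : ℂ) = -1) (hw' : (c w' : ℂ) = 1 ∨ (c w' : ℂ) = -1) : GcOn x (fun g => (χ : G → ℂ) g / 2) := by
  have hH := closure_comm (pair_comm hxi)
  have hxH : x ∈ closure ({x, i} : Set G) := subset_closure (by simp)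
  have hiH : i ∈ closure ({x, i} : Set G) := subset_closure (by simp)
  have hε : (c w' : ℂ) ^ 2 = 1 := by rcases hw' with h | h <;> rw [h] <;> norm_num
  have hw2 : w' ^ 2 = 1 := by
    apply hc
    rw [map_pow, map_one]
    apply Units.ext
    rw [Units.val_pow_eq_pow_val, hε, Units.val_one]
  have hi4 : i ^ 4 = 1 := by
    have h1 : i ^ 4 = (i * i) ^ 2 := by rw [← pow_two, ← pow_mul]
    rw [h1, hii, ← Subgroup.coe_pow, hw2, Subgroup.coe_one]
  have h1 : ∀ z ∈ zpowers x, (χ : G → ℂ) (z * i) = 0 := by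
    intro z hz
    have h2 : j⁻¹ * i * (j⁻¹)⁻¹ = i * w := by
      rw [inv_inv, mul_assoc, hij, ← mul_assoc, ← mul_assoc, inv_mul_cancel, one_mul]
    have h3 := irr_conj_mul χ (hxj.inv_right) h2 hz
    rw [← mul_assoc, hχ (z * i) w, hw] at h3
    have h4 : (2 : ℂ) * (χ : G → ℂ) (z * i) = 0 := by linear_combination -h3
    rcases mul_eq_zero.1 h4 with h5 | h5
    · norm_num at h5
    · exact h5
  refine gc_two hH (chOn_irr _ χ) hxH hiH hi4 hε h1 ?_ ?_
  · intro z _
    rw [pow_two, hii, hχ z w', mul_comm]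
  · intro z hz
    have h2 : z * i ^ 3 = z * i * w' := by
      rw [← hii, pow_succ, pow_two]
      group
    rw [h2, hχ (z * i) w', h1 z hz, zero_mul]

/-- **F2** -/
theorem F2 (hN : N ≤ center G) (hc : Function.Injective c)
    (hS : ∀ χ : IrrCharacter G, Lies N c (χ : G → ℂ) → ¬ p ∣ charDegree (χ : G → ℂ))
    (hx : x ^ p ^ a = 1) {i j : G} (hxi : Commute x i) (hxj : Commute x j) {w w' : N} (hij : i * j = j * i * w)
    (hii : i * i = w') (hw : (c w : ℂ) = -1) (hw' : (c w' : ℂ) = 1 ∨ (c w' : ℂ) = -1) {A : ℕ}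
    (hA : Nat.card (centralizer ({x} : Set G)) ≤ Nat.card N * A) :
    4 * Nat.card {χ : IrrCharacter G // Lies N c (χ : G → ℂ)} ≤ A := by
  classical
  have := finite_irr (G := G)
  have := Fintype.ofFinite (IrrCharacter G)
  have h := main_bound x (ov N c) (fun χ z => ‖(χ : G → ℂ) z‖ ^ 2) (K := 4) (M := (A : ℝ)) ?_ ?_
  · rw [card_ov]
    exact_mod_cast h
  · intro χ hχ
    have h1 := card_le_of_ne (gc_anti hc (mem_ov.1 hχ) hxi hxj hij hii hw hw')
      (div_ne_zero (ne_zero hS hx (mem_ov.1 hχ)) two_ne_zero)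
    have h2 : ∑ z ∈ gens x, ‖(χ : G → ℂ) z / 2‖ ^ 2 = (∑ z ∈ gens x, ‖(χ : G → ℂ) z‖ ^ 2) / 4 := by
      rw [Finset.sum_div]
      refine Finset.sum_congr rfl fun z _ => ?_
      rw [norm_div, div_pow, Complex.norm_ofNat]
      norm_num
    rw [h2] at h1
    linarith
  · intro z hz
    exact col_gens_le_one hN hc hA hz

/-- **F3** -/
theorem F3 (hp2 : p ≠ 2) (hN : N ≤ center G) (hpN : ¬ p ∣ Nat.card N) (hc : Function.Injective c)
    (hS : ∀ χ : IrrCharacter G, Lies N c (χ : G → ℂ) → ¬ p ∣ charDegree (χ : G → ℂ))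
    (hx : x ^ p ^ a = 1) {y y' t : G} (hxy : Commute x y) (hxy' : Commute x y') (hxt : Commute x t)
    (hy : y * y = 1) (hy' : y' * y' = 1) (hyy' : y * y' = y' * y) (ht : t * y * t⁻¹ = y')
    (ht' : t * y' * t⁻¹ = y * y') (hyN : y ∉ N) {A B : ℕ}
    (hA : Nat.card (centralizer ({x} : Set G)) ≤ Nat.card N * A)
    (hB : Nat.card (centralizer ({x * y} : Set G)) ≤ Nat.card N * B) :
    8 * Nat.card {χ : IrrCharacter G // Lies N c (χ : G → ℂ)} ≤ A + 5 * B := by
  classical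
  have := finite_irr (G := G)
  have := Fintype.ofFinite (IrrCharacter G)
  have hH := closure_comm (triple_comm hxy hxy' hyy')
  have hxH : x ∈ closure ({x, y, y'} : Set G) := subset_closure (by simp)
  have hyH : y ∈ closure ({x, y, y'} : Set G) := subset_closure (by simp)
  have hyH' : y' ∈ closure ({x, y, y'} : Set G) := subset_closure (by simp)
  have hy2 : y ^ 2 = 1 := by rw [pow_two, hy]
  have hco : Nat.Coprime 2 p := (Nat.coprime_primes Nat.prime_two hp.out).2 (Ne.symm hp2)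
  have hNco : (Nat.card N).Coprime p := ((hp.out.coprime_iff_not_dvd).2 hpN).symm
  have hq : ∀ χ : IrrCharacter G, GcOn x (fun g => (χ : G → ℂ) (g * y)) := fun χ =>
    gc_mul hH (chOn_irr _ χ) hxH hyH hy
  have hu : ∀ χ : IrrCharacter G, GcOn x (fun g => ((χ : G → ℂ) g + 3 * (χ : G → ℂ) (g * y)) / 4) := fun χ => by
    refine ((((chOn_irr _ χ).half hH hyH hy).half hH hyH' hy').gc hxH).congr fun z hz => ?_
    have h1 := irr_conj_mul χ hxt ht hz
    have h2 := irr_conj_mul χ hxt ht' hz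
    have h3 : z * y' * y = z * (y * y') := by rw [hyy', mul_assoc]
    rw [h3, h2, h1]
    ring
  have hv : ∀ χ : IrrCharacter G, GcOn x (fun g => ((χ : G → ℂ) g - (χ : G → ℂ) (g * y)) / 4) := fun χ => by
    refine ((hu χ).sub (hq χ)).congr fun z _ => ?_
    ring
  have h := main_bound x (ov N c) (fun χ z => 8 * (‖((χ : G → ℂ) z + 3 * (χ : G → ℂ) (z * y)) / 4‖ ^ 2 +
    ‖((χ : G → ℂ) z - (χ : G → ℂ) (z * y)) / 4‖ ^ 2)) (K := 8) (M := (A : ℝ) + 5 * B) ?_ ?_
  · rw [card_ov]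
    exact_mod_cast h
  · intro χ hχ
    rw [← Finset.mul_sum]
    have h1 := one_of_two (hu χ) (hv χ) fun h1 => ne_zero hS hx (mem_ov.1 hχ) (by
      linear_combination h1.1 + 3 * h1.2)
    linarith
  · intro z hz
    rw [Finset.sum_congr rfl fun χ _ => norm_F3 _ _, Finset.sum_add_distrib, Finset.sum_add_distrib,
      ← Finset.mul_sum, ← Finset.mul_sum, ← Complex.re_sum, cross_zero_one hN c hNco hx hxy hy2 hco hyN hz]
    have h1 := col_gens_le_one hN hc hA hz
    have h2 := col_gens_le hN hc hx hxy hy2 hco hB hz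
    rw [Complex.zero_re]
    linarith

/-- **F4** -/
theorem F4 (hp3 : p ≠ 3) (hN : N ≤ center G) (hpN : ¬ p ∣ Nat.card N) (hc : Function.Injective c)
    (hS : ∀ χ : IrrCharacter G, Lies N c (χ : G → ℂ) → ¬ p ∣ charDegree (χ : G → ℂ))
    (hx : x ^ p ^ a = 1) {i j : G} (hxi : Commute x i) (hxj : Commute x j) {w w' : N} (hij : i * j = j * i * w)
    (hii : i * i = w') (hw : (c w : ℂ) = -1) (hw' : (c w' : ℂ) = 1 ∨ (c w' : ℂ) = -1)
    {y s : G} (hxy : Commute x y) (hy : y ^ 3 = 1) (hyN : y ∉ N) (hxs : Commute x s) (hs : s * y * s⁻¹ = y⁻¹)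
    {A B : ℕ} (hA : Nat.card (centralizer ({x} : Set G)) ≤ Nat.card N * A)
    (hB : Nat.card (centralizer ({x * y} : Set G)) ≤ Nat.card N * B) :
    36 * Nat.card {χ : IrrCharacter G // Lies N c (χ : G → ℂ)} ≤ A + 28 * B := by
  classical
  have := finite_irr (G := G)
  have := Fintype.ofFinite (IrrCharacter G)
  have hH := closure_comm (pair_comm hxy)
  have hxH : x ∈ closure ({x, y} : Set G) := subset_closure (by simp)
  have hyH : y ∈ closure ({x, y} : Set G) := subset_closure (by simp)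
  have hco : Nat.Coprime 3 p := (Nat.coprime_primes Nat.prime_three hp.out).2 (Ne.symm hp3)
  have hNco : (Nat.card N).Coprime p := ((hp.out.coprime_iff_not_dvd).2 hpN).symm
  have hyinv : y⁻¹ = y ^ 2 := by
    rw [inv_eq_iff_mul_eq_one, ← pow_succ']
    exact hy
  have hh : ∀ χ ∈ ov N c, GcOn x (fun g => (χ : G → ℂ) g / 2) := fun χ hχ =>
    gc_anti hc (mem_ov.1 hχ) hxi hxj hij hii hw hw'
  have ht : ∀ χ : IrrCharacter G, GcOn x (fun g => ((χ : G → ℂ) g - (χ : G → ℂ) (g * y)) / 3) := fun χ =>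
    gc_third hH (chOn_irr _ χ) hxH hyH hy fun z hz => by rw [← hyinv]; exact irr_conj_mul χ hxs hs hz
  have hu : ∀ χ ∈ ov N c, GcOn x (fun g => ((χ : G → ℂ) g - 4 * (χ : G → ℂ) (g * y)) / 6) := fun χ hχ => by
    refine (((ht χ).smul 2).sub (hh χ hχ)).congr fun z _ => ?_
    push_cast
    ring
  have hv : ∀ χ ∈ ov N c, GcOn x (fun g => ((χ : G → ℂ) g + 2 * (χ : G → ℂ) (g * y)) / 6) := fun χ hχ => by
    refine ((hh χ hχ).sub (ht χ)).congr fun z _ => ?_
    ring
  have h := main_bound x (ov N c) (fun χ z => 18 * (‖((χ : G → ℂ) z - 4 * (χ : G → ℂ) (z * y)) / 6‖ ^ 2 +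
    ‖((χ : G → ℂ) z + 2 * (χ : G → ℂ) (z * y)) / 6‖ ^ 2 +
    ‖((χ : G → ℂ) z - 4 * (χ : G → ℂ) (z * y)) / 6 - ((χ : G → ℂ) z + 2 * (χ : G → ℂ) (z * y)) / 6‖ ^ 2))
    (K := 36) (M := (A : ℝ) + 28 * B) ?_ ?_
  · rw [card_ov]
    exact_mod_cast h
  · intro χ hχ
    rw [← Finset.mul_sum]
    have h1 := two_of_three (hu χ hχ) (hv χ hχ) fun h1 => ne_zero hS hx (mem_ov.1 hχ) (by
      linear_combination 2 * h1.1 + 4 * h1.2)
    linarith
  · intro z hz
    rw [Finset.sum_congr rfl fun χ _ => norm_F4 _ _, Finset.sum_sub_distrib, Finset.sum_add_distrib,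
      ← Finset.mul_sum, ← Finset.mul_sum, ← Complex.re_sum, cross_zero_one hN c hNco hx hxy hy hco hyN hz]
    have h1 := col_gens_le_one hN hc hA hz
    have h2 := col_gens_le hN hc hx hxy hy hco hB hz
    rw [Complex.zero_re]
    linarith

/-- A value which is `p` times an algebraic integer at a `p`-element. -/
theorem dvd_of_mul {χ : IrrCharacter G} (hx : x ^ p ^ a = 1) {w : ℂ} (hw : IsIntegral ℤ w)
    (h : (χ : G → ℂ) x = p * w) : p ∣ charDegree (χ : G → ℂ) := by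
  obtain ⟨M, hM⟩ := Blocks.ExistsModular.exists_isPModular hp.out
  have hMp : M.IsPrime := hM.2.1.isPrime
  have h1 := H849.OZ.av_sub_mem (χ := χ) hp.out hMp hM.2.2 x (j := 0) (n := a) (by rw [pow_zero, one_pow, hx])
  have h2 : H732.VZ.av χ x = (p : AlgInt) * (⟨w, hw⟩ : AlgInt) := by
    apply Subtype.ext
    rw [H732.VZ.av_coe, h]
    rfl
  have h3 : H732.VZ.av χ x ∈ M := by
    rw [h2]
    exact M.mul_mem_right _ hM.2.2
  rw [pow_zero] at h1
  have h4 := M.sub_mem h3 h1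
  rw [sub_sub_cancel] at h4
  have h5 : H732.VZ.av χ 1 = ((charDegree (χ : G → ℂ) : ℤ) : AlgInt) := by
    apply Subtype.ext
    rw [H732.VZ.av_coe, ← H686.CharKit.charDegree_irr χ]
    simp
  rw [h5, H732.VZ.int_mem_iff hp.out hMp hM.2.2] at h4
  exact_mod_cast h4

end forms

/-- **F5** -/
theorem F5 {N : Subgroup G} {c : N →* ℂˣ} {x : G} {a : ℕ} (hN : N ≤ center G) (hpN : ¬ 5 ∣ Nat.card N)
    (hc : Function.Injective c)
    (hS : ∀ χ : IrrCharacter G, Lies N c (χ : G → ℂ) → ¬ 5 ∣ charDegree (χ : G → ℂ))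
    (hx : x ^ 5 ^ a = 1) {y y' t s : G} (hxy : Commute x y) (hxy' : Commute x y') (hxt : Commute x t)
    (hxs : Commute x s) (hy : y * y = 1) (hy' : y' * y' = 1) (hyy' : y * y' = y' * y) (ht : t * y * t⁻¹ = y')
    (ht' : t * y' * t⁻¹ = y * y') (ht3 : t ^ 3 = 1) (hs : s * t * s⁻¹ = t⁻¹) (hyN : y ∉ N) {A B₂ B₃ : ℕ}
    (hA : Nat.card (centralizer ({x} : Set G)) ≤ Nat.card N * A)
    (hB₂ : Nat.card (centralizer ({x * y} : Set G)) ≤ Nat.card N * B₂)
    (hB₃ : Nat.card (centralizer ({x * t} : Set G)) ≤ Nat.card N * B₃) :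
    48 * Nat.card {χ : IrrCharacter G // Lies N c (χ : G → ℂ)} ≤ A + 21 * B₂ + 16 * B₃ := by
  classical
  have hp : Fact (Nat.Prime 5) := ⟨by norm_num⟩
  have := finite_irr (G := G)
  have := Fintype.ofFinite (IrrCharacter G)
  have hH := closure_comm (triple_comm hxy hxy' hyy')
  have hxH : x ∈ closure ({x, y, y'} : Set G) := subset_closure (by simp)
  have hyH : y ∈ closure ({x, y, y'} : Set G) := subset_closure (by simp)
  have hyH' : y' ∈ closure ({x, y, y'} : Set G) := subset_closure (by simp)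
  have hT := closure_comm (pair_comm hxt)
  have hxT : x ∈ closure ({x, t} : Set G) := subset_closure (by simp)
  have htT : t ∈ closure ({x, t} : Set G) := subset_closure (by simp)
  have hy2 : y ^ 2 = 1 := by rw [pow_two, hy]
  have hy6 : y ^ 6 = 1 := by
    calc y ^ 6 = (y ^ 2) ^ 3 := by rw [← pow_mul]
      _ = 1 := by rw [hy2, one_pow]
  have ht6 : t ^ 6 = 1 := by
    calc t ^ 6 = (t ^ 3) ^ 2 := by rw [← pow_mul]
      _ = 1 := by rw [ht3, one_pow]
  have hco2 : Nat.Coprime 2 5 := by norm_num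
  have hco3 : Nat.Coprime 3 5 := by norm_num
  have hco6 : Nat.Coprime 6 5 := by norm_num
  have hNco : (Nat.card N).Coprime 5 := ((hp.out.coprime_iff_not_dvd).2 hpN).symm
  have htinv : t⁻¹ = t ^ 2 := by
    rw [inv_eq_iff_mul_eq_one, ← pow_succ']
    exact ht3
  have htN : t ∉ N := by
    intro h1
    have h2 := mem_center_iff.1 (hN h1)
    rw [← h2, mul_inv_cancel_right] at ht
    rw [← h2, mul_inv_cancel_right, ← ht, hy] at ht'
    exact hyN (ht' ▸ one_mem N)
  have hyt : ∀ m : N, ¬ IsConj (y * m) t := by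
    intro m hm
    have hcm : ∀ g : G, g * m = m * g := mem_center_iff.1 (hN m.2)
    obtain ⟨g, hg⟩ := isConj_iff.1 hm
    have h1 : (y * (m : G)) ^ 2 = (m : G) ^ 2 := by
      rw [Commute.mul_pow (hcm y), hy2, one_mul]
    have h2 : t ^ 2 = (m : G) ^ 2 := by
      rw [← hg, conj_pow, h1, pow_two, ← mul_assoc, hcm g, mul_assoc (m : G) g (m : G), hcm g, ← mul_assoc,
        mul_assoc, mul_assoc, mul_inv_cancel, mul_one]
    have h3 : t = ((m ^ 2 * m ^ 2 : N) : G) := by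
      rw [Subgroup.coe_mul, Subgroup.coe_pow, ← h2, ← pow_add]
      calc t = t ^ 3 * t := by rw [ht3, one_mul]
        _ = t ^ (2 + 2) := by rw [← pow_succ]
    exact htN (h3 ▸ (m ^ 2 * m ^ 2 : N).2)
  have hq : ∀ χ : IrrCharacter G, GcOn x (fun g => (χ : G → ℂ) (g * y)) := fun χ =>
    gc_mul hH (chOn_irr _ χ) hxH hyH hy
  have ha : ∀ χ : IrrCharacter G, GcOn x (fun g => ((χ : G → ℂ) g + 3 * (χ : G → ℂ) (g * y)) / 4) := fun χ => by
    refine ((((chOn_irr _ χ).half hH hyH hy).half hH hyH' hy').gc hxH).congr fun z hz => ?_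
    have h1 := irr_conj_mul χ hxt ht hz
    have h2 := irr_conj_mul χ hxt ht' hz
    have h3 : z * y' * y = z * (y * y') := by rw [hyy', mul_assoc]
    rw [h3, h2, h1]
    ring
  have hthird : ∀ χ : IrrCharacter G, GcOn x (fun g => ((χ : G → ℂ) g - (χ : G → ℂ) (g * t)) / 3) := fun χ =>
    gc_third hT (chOn_irr _ χ) hxT htT ht3 fun z hz => by rw [← htinv]; exact irr_conj_mul χ hxs hs hz
  have hw : ∀ χ : IrrCharacter G,
      GcOn x (fun g => ((χ : G → ℂ) g + 3 * (χ : G → ℂ) (g * y) - 4 * (χ : G → ℂ) (g * t)) / 12) := fun χ => by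
    refine (((hthird χ).add (hq χ)).sub (ha χ)).congr fun z _ => ?_
    ring
  have hr : ∀ χ : IrrCharacter G, GcOn x (fun g => (χ : G → ℂ) (g * t)) := fun χ => by
    refine ((ChOn.gc (chOn_irr _ χ) hxT).sub ((hthird χ).smul 3)).congr fun z _ => ?_
    push_cast
    ring
  have hu : ∀ χ : IrrCharacter G,
      GcOn x (fun g => ((χ : G → ℂ) g + 3 * (χ : G → ℂ) (g * y) + 8 * (χ : G → ℂ) (g * t)) / 12) := fun χ => by
    refine ((hw χ).add (hr χ)).congr fun z _ => ?_
    ring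
  have hv : ∀ χ : IrrCharacter G,
      GcOn x (fun g => ((χ : G → ℂ) g - 3 * (χ : G → ℂ) (g * y) + 2 * (χ : G → ℂ) (g * t)) / 6) := fun χ => by
    refine (((ha χ).sub (hq χ)).sub (hw χ)).congr fun z _ => ?_
    ring
  have h := main_bound x (ov N c) (fun χ z =>
    24 * (‖((χ : G → ℂ) z + 3 * (χ : G → ℂ) (z * y) + 8 * (χ : G → ℂ) (z * t)) / 12‖ ^ 2 +
    ‖((χ : G → ℂ) z - 3 * (χ : G → ℂ) (z * y) + 2 * (χ : G → ℂ) (z * t)) / 6‖ ^ 2 +
    ‖((χ : G → ℂ) z + 3 * (χ : G → ℂ) (z * y) + 8 * (χ : G → ℂ) (z * t)) / 12 -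
      ((χ : G → ℂ) z - 3 * (χ : G → ℂ) (z * y) + 2 * (χ : G → ℂ) (z * t)) / 6‖ ^ 2))
    (K := 48) (M := (A : ℝ) + 21 * B₂ + 16 * B₃) ?_ ?_
  · rw [card_ov]
    exact_mod_cast h
  · intro χ hχ
    rw [← Finset.mul_sum]
    have h1 := two_of_three (hu χ) (hv χ) fun h1 => by
      refine hS χ (mem_ov.1 hχ) (dvd_of_mul (p := 5) (a := a) (x := x) hx (gen_isIntegral (hw χ) ⟨x, mem_zpowers x⟩) ?_)
      push_cast
      linear_combination h1.1 + 3 * h1.2
    linarith
  · intro z hz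
    rw [Finset.sum_congr rfl fun χ _ => norm_F5 _ _ _, Finset.sum_add_distrib, Finset.sum_add_distrib,
      Finset.sum_sub_distrib, Finset.sum_add_distrib, Finset.sum_add_distrib,
      ← Finset.mul_sum, ← Finset.mul_sum, ← Finset.mul_sum, ← Finset.mul_sum, ← Finset.mul_sum,
      ← Complex.re_sum, ← Complex.re_sum, ← Complex.re_sum, cross_zero_one hN c hNco hx hxy hy2 hco2 hyN hz,
      cross_zero_one hN c hNco hx hxt ht3 hco3 htN hz, cross_zero hN c hNco hx hxy hxt hy6 ht6 hco6 hyt hz]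
    have h1 := col_gens_le_one hN hc hA hz
    have h2 := col_gens_le hN hc hx hxy hy2 hco2 hB₂ hz
    have h3 := col_gens_le hN hc hx hxt ht3 hco3 hB₃ hz
    rw [Complex.zero_re]
    linarith

end Cfsg.Agent.H795.RIM.Form
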