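import Cfsg.Agent.H795.RIM.Tool
import Cfsg.Agent.H347.HX.G23.Main

/-!
# S4816: `G₂(3)`, the primes 7 and 13 (helper795)

Nine classes of elements of order prime to 3; `|C(7A)| = 7 < 9`; `|C(13A)| = 13`, `|N(13A)| = 6 · 13` and
`6 ^ 2 + 12 < 6 * 9`.
-/

set_option autoImplicit false
set_option maxRecDepth 100000
set_option Elab.async false

namespace Cfsg.Agent.H795.RIM.G23

open Cfsg Subgroup
open Cfsg.Agent.H347.HX Cfsg.Agent.H347.HX.G23
open Cfsg.Agent.H620.RIM Cfsg.Agent.H665.RIM

universe u v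

/-- the nine classes -/
noncomputable def L9 : List (A × Cl) := [
  (ev s (wr []), c0),
  (ev s (wr [4, 1]), c1),
  (ev s (wr [1, 0]), c7),
  (ev s (wr [4, 0]), c8),
  (ev s (wr [1, 5, 1]), c13),
  (ev s (wr [4, 5, 1]), c14),
  (ev s (wr [5, 3, 4]), c15),
  (ev s (wr [5, 1]), c21),
  (ev s (wr [5, 4]), c22)]

theorem L9_Rp : ∀ p ∈ L9, Rp p.2.X p.1 := by
  intro p hp
  simp only [L9, List.mem_cons, List.not_mem_nil, or_false] at hp
  rcases hp with rfl | rfl | rfl | rfl | rfl | rfl | rfl | rfl | rfl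
  exacts [Rp.of_tb rp_s t0, Rp.of_tb rp_s t1, Rp.of_tb rp_s t7, Rp.of_tb rp_s t8, Rp.of_tb rp_s t13,
    Rp.of_tb rp_s t14, Rp.of_tb rp_s t15, Rp.of_tb rp_s t21, Rp.of_tb rp_s t22]

theorem L9_key : (L9.map fun p => ts.map (cnc 364 co p.2.X)).Nodup := by
  show [ts.map (cnc 364 co c0.X), ts.map (cnc 364 co c1.X), ts.map (cnc 364 co c7.X), ts.map (cnc 364 co c8.X),
    ts.map (cnc 364 co c13.X), ts.map (cnc 364 co c14.X), ts.map (cnc 364 co c15.X), ts.map (cnc 364 co c21.X),
    ts.map (cnc 364 co c22.X)].Nodup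
  rw [k0, k1, k7, k8, k13, k14, k15, k21, k22]
  decide

/-- Different keys: not conjugate. -/
theorem pairwise_of_key {n : ℕ} {co : ℕ → ℕ → ℕ} (T : List Ct) (L : List (↥(Aut n co) × Cl))
    (hX : ∀ p ∈ L, Rp p.2.X p.1) (hd : (L.map fun p => T.map (cnc n co p.2.X)).Nodup) :
    (L.map Prod.fst).Pairwise fun a b => ¬ IsConj a b := by
  rw [List.pairwise_map]
  rw [List.Nodup, List.pairwise_map] at hd
  refine hd.imp_of_mem ?_
  intro p q hp hq hne hc
  apply hne
  apply List.map_congr_left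
  intro t _
  rw [← cn_eq (hX p hp) t, ← cn_eq (hX q hq) t]
  exact cn_isConj t hc

theorem L9_pw : (L9.map Prod.fst).Pairwise fun a b => ¬ IsConj a b := pairwise_of_key ts L9 L9_Rp L9_key

/-- the exponent check -/
def xp (X : ℕ → ℕ) (k : ℕ) : Bool := alb 364 fun q => Nat.beq (it X k q) q

theorem x0 : xp c0.X 1 = true := by decide +kernel
theorem x1 : xp c1.X 2 = true := by decide +kernel
theorem x7 : xp c7.X 4 = true := by decide +kernel
theorem x8 : xp c8.X 4 = true := by decide +kernel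
theorem x13 : xp c13.X 7 = true := by decide +kernel
theorem x14 : xp c14.X 8 = true := by decide +kernel
theorem x15 : xp c15.X 8 = true := by decide +kernel
theorem x21 : xp c21.X 13 = true := by decide +kernel
theorem x22 : xp c22.X 13 = true := by decide +kernel

theorem coprime_of {X : ℕ → ℕ} {x : A} (hX : Rp X x) {k : ℕ} (h : xp X k = true) (hk : k.Coprime 3) :
    (orderOf x).Coprime 3 :=
  Nat.Coprime.of_dvd_left (orderOf_dvd_of_pow_eq_one (pow_eq_one_of hX h)) hk

theorem L9_cop : ∀ g ∈ L9.map Prod.fst, (orderOf g).Coprime 3 := by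
  intro g hg
  obtain ⟨p, hp, rfl⟩ := List.mem_map.1 hg
  have hR := L9_Rp p hp
  simp only [L9, List.mem_cons, List.not_mem_nil, or_false] at hp
  rcases hp with rfl | rfl | rfl | rfl | rfl | rfl | rfl | rfl | rfl
  exacts [coprime_of hR x0 (by decide), coprime_of hR x1 (by decide), coprime_of hR x7 (by decide),
    coprime_of hR x8 (by decide), coprime_of hR x13 (by decide), coprime_of hR x14 (by decide),
    coprime_of hR x15 (by decide), coprime_of hR x21 (by decide), coprime_of hR x22 (by decide)]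

theorem L9_good : ∀ g ∈ L9.map Prod.fst, MGood 3 g := fun g hg => mGood_of_coprime (L9_cop g hg)

theorem L9_len : (L9.map Prod.fst).length = 9 := by simp [L9]

/-- the element of order 7 -/
noncomputable def y7 : A := ev s (wr [1, 5, 1])

/-- the element of order 13 -/
noncomputable def y13 : A := ev s (wr [5, 1])

theorem ne_one {X : ℕ → ℕ} {x : A} (hX : Rp X x) (p : Fin 364) (h : Nat.beq (X p) p = false) : x ≠ 1 := by
  rintro rfl
  have h1 := hX p
  rw [← h1] at h
  have h2 : Nat.beq (p : ℕ) p = false := h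
  rw [Nat.beq_refl] at h2
  cases h2

theorem o7 : orderOf y7 = 7 := by
  have : Fact (Nat.Prime 7) := ⟨by norm_num⟩
  exact orderOf_eq_prime (pow_eq_one_of (Rp.of_tb rp_s t13) x13) (ne_one (Rp.of_tb rp_s t13) 0 (by decide +kernel))

theorem o13 : orderOf y13 = 13 := by
  have : Fact (Nat.Prime 13) := ⟨by norm_num⟩
  exact orderOf_eq_prime (pow_eq_one_of (Rp.of_tb rp_s t21) x21) (ne_one (Rp.of_tb rp_s t21) 0 (by decide +kernel))

theorem cy7 : Nat.card (centralizer ({y7} : Set A)) ≤ 7 := (card_le (Rp.of_tb rp_s t13) hbase r13).trans (by decide +kernel)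

theorem cy13 : Nat.card (centralizer ({y13} : Set A)) = 13 := by
  refine le_antisymm ((card_le (Rp.of_tb rp_s t21) hbase r21).trans (by decide +kernel)) ?_
  refine Nat.le_of_dvd Nat.card_pos ?_
  have h1 : y13 ∈ centralizer ({y13} : Set A) := mem_centralizer_singleton_iff.2 rfl
  have h2 := _root_.orderOf_dvd_natCard (⟨y13, h1⟩ : centralizer ({y13} : Set A))
  rwa [← orderOf_submonoid, o13] at h2

theorem nb_seven {S : Type u} [Group S] (e : A ≃* S) : NB 7 3 S :=
  nb_cent_model (by norm_num) (by norm_num) e (y := y7) (n := 1) (by rw [o7]; rfl) (L9.map Prod.fst) L9_pw L9_good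
    (lt_of_le_of_lt cy7 (by rw [L9_len]; norm_num))

theorem nb_thirteen {S : Type u} [Group S] (e : A ≃* S) : NB 13 3 S := by
  have : Fact (Nat.Prime 13) := ⟨by norm_num⟩
  refine nb_dz_self (by norm_num) e ?_ o13 (w := 6) cy13 ?_ (L9.map Prod.fst) L9_pw L9_good ?_
  · rw [card_A]; exact not_sq (by norm_num) (by norm_num)
  · rw [card_A]; decide
  · rw [L9_len]; norm_num

end Cfsg.Agent.H795.RIM.G23
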