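import Cfsg.Agent.H795.RIM.G23
import Cfsg.Agent.S2101

/-!
# S4816: the rows `G₂(3)`, `p = 7, 13` (helper795)
-/

set_option autoImplicit false

namespace Cfsg.Agent.H795.RIM.G23

open Cfsg
open Cfsg.Agent.H347.HX.G23
open Cfsg.Agent.H665.RIM

universe u v

theorem exists_equiv {F : Type v} [Field F] [Fintype F] (hF : Fintype.card F = 3) :
    Nonempty (A ≃* ↥(Lie.chevG2.group F)) := by
  classical
  have σ : ZMod 3 ≃+* F := FiniteField.ringEquivOfCardEq (by rw [ZMod.card, hF])
  obtain ⟨e⟩ := iso.2.2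
  exact ⟨e.trans (ChevalleyStructure.FieldIso.groupEquiv Lie.chevG2 σ)⟩

/-- **The row `G₂(3)`, `p = 7`** -/
theorem row_seven {S : Type u} [Group S] {F : Type v} [Field F] [Fintype F] (hF : Fintype.card F = 3)
    (h : Nonempty (S ≃* ↥(Lie.chevG2.group F))) : NBall 7 S := by
  obtain ⟨f⟩ := h
  obtain ⟨e⟩ := exists_equiv hF
  exact nball_of_prime Nat.prime_three f (S2101.result hF) (nb_seven (e.trans f.symm))

/-- **The row `G₂(3)`, `p = 13`** -/
theorem row_thirteen {S : Type u} [Group S] {F : Type v} [Field F] [Fintype F] (hF : Fintype.card F = 3)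
    (h : Nonempty (S ≃* ↥(Lie.chevG2.group F))) : NBall 13 S := by
  obtain ⟨f⟩ := h
  obtain ⟨e⟩ := exists_equiv hF
  exact nball_of_prime Nat.prime_three f (S2101.result hF) (nb_thirteen (e.trans f.symm))

/-- **The row `G₂(3)`**, all primes `p ≥ 5` dividing the order -/
theorem row {S : Type u} [Group S] {F : Type v} [Field F] [Fintype F] (hF : Fintype.card F = 3)
    (h : Nonempty (S ≃* ↥(Lie.chevG2.group F))) {p : ℕ} (hp : p = 7 ∨ p = 13) : NBall p S := by
  rcases hp with rfl | rfl
  · exact row_seven hF h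
  · exact row_thirteen hF h

end Cfsg.Agent.H795.RIM.G23
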