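import Cfsg.Agent.H620.RIM.Nb
import Cfsg.Agent.H713.Engine
import Cfsg.Agent.H68.Bounds

/-!
# S4816: the counting tools with a model of the simple group (helper795)

* `nball_of_cyclic` : `NBall p S` from the divisors of the order of a cyclic multiplier;
* `nb_cent_model`, `nb_dz_model` : the counting tools of helper620 for `S ≃* A`, with a list of elements of `A`.
-/

set_option autoImplicit false
set_option linter.unusedSectionVars false

namespace Cfsg.Agent.H795.RIM

open Cfsg Subgroup
open Cfsg.Agent.H620.RIM Cfsg.Agent.H665.RIM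
open Cfsg.Agent.H713 Cfsg.Agent.H713.Count

universe u v

/-- Only the divisors of the order of the multiplier. -/
theorem nball_of_cyclic {S : Type u} [Group S] {T : Type v} [Group T] {n p : ℕ} (e : S ≃* T)
    (hT : Cfsg.HasCyclicSchurMultiplier T n) (h : ∀ m : ℕ, 2 ≤ m → m ∣ n → ¬ p ∣ m → NB p m S) : NBall p S := by
  intro m hm hpm E _ _ π hs hc hperf hk l hl
  have h1 : H51.Mult.PCE (e.toMonoidHom.comp π) := ⟨e.surjective.comp hs, by
    intro x hx
    have h2 : e (π x) = 1 := hx
    rw [e.map_eq_one_iff] at h2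
    exact hc h2, hperf⟩
  have h2 := (H68.Bounds.ker_of_hasCyclic hT h1).2
  have h3 : (e.toMonoidHom.comp π).ker = π.ker := by
    ext x
    exact e.map_eq_one_iff
  rw [h3, hk] at h2
  exact h m hm h2 hpm E π hs hc hperf hk l hl

/-- The multiplier has prime order. -/
theorem nball_of_prime {S : Type u} [Group S] {T : Type v} [Group T] {q p : ℕ} (hq : q.Prime) (e : S ≃* T)
    (hT : Cfsg.HasCyclicSchurMultiplier T q) (h : NB p q S) : NBall p S :=
  nball_of_cyclic e hT fun m hm hd _ => by
    rcases (Nat.dvd_prime hq).1 hd with h1 | h1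
    · omega
    · rw [h1]; exact h

theorem not_isConj_map {S : Type u} [Group S] {A : Type v} [Group A] (e : A ≃* S) {a b : A} (h : ¬ IsConj a b) :
    ¬ IsConj (e a) (e b) := by
  intro h1
  apply h
  obtain ⟨c, hc⟩ := isConj_iff.1 h1
  refine isConj_iff.2 ⟨e.symm c, ?_⟩
  have h2 := congrArg e.symm hc
  simpa using h2

theorem orderOf_map {S : Type u} [Group S] {A : Type v} [Group A] (e : A ≃* S) (a : A) : orderOf (e a) = orderOf a :=
  orderOf_injective e.toMonoidHom e.injective a

/-- Lists of elements of a model. -/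
theorem exists_finset_model {m : ℕ} {S : Type u} [Group S] {A : Type v} [Group A] (e : A ≃* S) (L : List A)
    (hL : L.Pairwise fun a b => ¬ IsConj a b) (hM : ∀ g ∈ L, MGood m g) :
    ∃ F : Finset (ConjClasses S), F.card = L.length ∧ ∀ C ∈ F, ∃ g : S, ConjClasses.mk g = C ∧ MGood m g := by
  obtain ⟨F, h1, h2⟩ := exists_finset (MGood (S := S) m) (L.map e) (by
    rw [List.pairwise_map]
    exact hL.imp fun h => not_isConj_map e h) (by
    intro g hg
    obtain ⟨a, ha, rfl⟩ := List.mem_map.1 hg
    exact (hM a ha).mulEquiv e)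
  rw [List.length_map] at h1
  exact ⟨F, h1, h2⟩

/-- **The centralizer count with a model.** -/
theorem nb_cent_model {p m : ℕ} (hp : p.Prime) (hpm : ¬ p ∣ m) {S : Type u} [Group S] {A : Type v} [Group A]
    (e : A ≃* S) {y : A} {n : ℕ} (hy : orderOf y = p ^ n) (L : List A) (hL : L.Pairwise fun a b => ¬ IsConj a b)
    (hM : ∀ g ∈ L, MGood m g) (hlt : Nat.card (centralizer ({y} : Set A)) < L.length) : NB p m S := by
  obtain ⟨F, h1, h2⟩ := exists_finset_model e L hL hM
  exact nb_of_cent hp hpm (y := e y) (n := n) (by rw [orderOf_map, hy]) F h2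
    (by rwa [card_centralizer_congr, h1])

/-- **The defect zero count with a model.**  `w` is the number of fusion exponents. -/
theorem nb_dz_model {p m : ℕ} [hp : Fact p.Prime] (hpm : ¬ p ∣ m) {S : Type u} [Group S] {A : Type v} [Group A] [Finite A]
    (e : A ≃* S) (hsq : ¬ p ^ 2 ∣ Nat.card A) {y : A} (hy : orderOf y = p) {k w k' : ℕ}
    (hC : Nat.card (centralizer ({y} : Set A)) = p * k) (hw : (fus (p := p) y).card = w)
    (hk' : ∀ C₀ : Subgroup A, C₀ ≤ centralizer {y} → Nat.card C₀ = k → Nat.card (ConjClasses C₀) ≤ k')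
    (L : List A) (hL : L.Pairwise fun a b => ¬ IsConj a b) (hM : ∀ g ∈ L, MGood m g)
    (hlt : k' * (w ^ 2 + (p - 1)) < w * L.length) : NB p m S := by
  obtain ⟨F, h1, h2⟩ := exists_finset_model e L hL hM
  refine nb_of_dz hp.out hpm (y := e y) (k := k) (w := w) (k' := k') ?_ ?_ ?_ ?_ ?_ F h2 (by rwa [h1])
  · rwa [← Nat.card_congr e.toEquiv]
  · rw [orderOf_map, hy]
  · rw [card_centralizer_congr, hC]
  · rw [card_normalizer_congr, card_normalizer_zpowers hy, hw, hC]
  · intro C₀ hC₀ hcard
    have h3 : C₀.map e.symm.toMonoidHom ≤ centralizer {y} := by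
      rintro _ ⟨x, hx, rfl⟩
      have h2 := hC₀ hx
      rw [mem_centralizer_singleton_iff] at h2 ⊢
      have h3 := congrArg e.symm h2
      rw [map_mul, map_mul, e.symm_apply_apply] at h3
      exact h3
    have h4 : Nat.card (C₀.map e.symm.toMonoidHom) = k := by
      rw [← hcard]
      exact (Nat.card_congr (C₀.equivMapOfInjective e.symm.toMonoidHom e.symm.injective).toEquiv).symm
    refine le_trans ?_ (hk' _ h3 h4)
    have h6 : Finite (ConjClasses (C₀.map e.symm.toMonoidHom)) :=
      Finite.of_surjective _ (ConjClasses.mk_surjective (α := C₀.map e.symm.toMonoidHom))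
    exact Nat.card_le_card_of_surjective _
      (ConjClasses.map_surjective (f := (C₀.equivMapOfInjective e.symm.toMonoidHom e.symm.injective).symm.toMonoidHom)
        (C₀.equivMapOfInjective e.symm.toMonoidHom e.symm.injective).symm.surjective)

/-- The number of fusion exponents by Sylow's theorem. -/
theorem fus_eq {p : ℕ} [hp : Fact p.Prime] {A : Type v} [Group A] [Finite A] (hsq : ¬ p ^ 2 ∣ Nat.card A) {y : A}
    (hy : orderOf y = p) {k w : ℕ} (hC : Nat.card (centralizer ({y} : Set A)) = p * k)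
    (hw : ∀ j ∈ Finset.Icc 1 (p - 1), j * k % p = Nat.card A / p % p → j = w) : (fus (p := p) y).card = w := by
  have hd : p ∣ Nat.card A := hy ▸ _root_.orderOf_dvd_natCard y
  have hf : (Nat.card A).factorization p = 1 := by
    refine le_antisymm ?_ ((hp.out.dvd_iff_one_le_factorization Nat.card_pos.ne').1 hd)
    by_contra hcon
    push Not at hcon
    exact hsq ((hp.out.pow_dvd_iff_le_factorization Nat.card_pos.ne').2 hcon)
  have hyp : y ^ p = 1 := by rw [← hy]; exact pow_orderOf_eq_one y
  have h1 := card_fus_mul_card_sing (p := p) hyp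
  have h2 := hp.out.one_lt
  refine hw _ ?_ (card_fus_mul hf hy hC)
  rw [Finset.mem_Icc]
  constructor
  · rcases Nat.eq_zero_or_pos (fus (p := p) y).card with h3 | h3
    · rw [h3, zero_mul] at h1; omega
    · exact h3
  · exact Nat.le_of_dvd (by omega) ⟨_, h1.symm⟩

/-- The case `C(y) = ⟨y⟩`. -/
theorem nb_dz_self {p m : ℕ} [hp : Fact p.Prime] (hpm : ¬ p ∣ m) {S : Type u} [Group S] {A : Type v} [Group A] [Finite A]
    (e : A ≃* S) (hsq : ¬ p ^ 2 ∣ Nat.card A) {y : A} (hy : orderOf y = p) {w : ℕ}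
    (hC : Nat.card (centralizer ({y} : Set A)) = p)
    (hw : ∀ j ∈ Finset.Icc 1 (p - 1), j * 1 % p = Nat.card A / p % p → j = w)
    (L : List A) (hL : L.Pairwise fun a b => ¬ IsConj a b) (hM : ∀ g ∈ L, MGood m g)
    (hlt : w ^ 2 + (p - 1) < w * L.length) : NB p m S := by
  have hC' : Nat.card (centralizer ({y} : Set A)) = p * 1 := by rw [hC, mul_one]
  refine nb_dz_model hpm e hsq hy (k := 1) (k' := 1) hC' (fus_eq hsq hy hC' hw) ?_ L hL hM (by rwa [one_mul])
  intro C₀ _ hcard
  have h1 : Subsingleton C₀ := (Nat.card_eq_one_iff_unique.1 hcard).1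
  have h2 : Subsingleton (ConjClasses C₀) := by
    refine ⟨fun a b => ?_⟩
    obtain ⟨a, rfl⟩ := ConjClasses.mk_surjective a
    obtain ⟨b, rfl⟩ := ConjClasses.mk_surjective b
    rw [Subsingleton.elim a b]
  have : Nat.card (ConjClasses C₀) = 1 := Nat.card_eq_one_iff_unique.2 ⟨h2, ⟨ConjClasses.mk 1⟩⟩
  exact this.le

end Cfsg.Agent.H795.RIM
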